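import Cfsg.Agent.Char.S6Ext
import Cfsg.Agent.Pres.Sym

/-! Facts on the symmetric group of degree six. -/

set_option autoImplicit false
set_option maxRecDepth 100000
set_option synthInstance.maxSize 4096

namespace Cfsg.Agent.P43

open Cfsg.Agent.Mat Cfsg.Agent.Char.S6 Equiv

/-- The symmetric group of degree six. -/
abbrev S6 := Perm (Fin 6)

/-- A `3`-cycle. -/
def y6 : S6 := swap 0 1 * swap 1 2

/-- A double transposition. -/
def n6 : S6 := swap 0 1 * swap 4 5

/-- A double transposition. -/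
def v6 : S6 := swap 0 1 * swap 2 3

/-- A triple transposition. -/
def t6 : S6 := swap 0 3 * swap 1 4 * swap 2 5

theorem conn_chk : allL (fun a => allL (fun b => !(br a b) || decide (a = b) ||
    allL (fun d => !(cm a d) || !(cm b d) || allL (fun e => !(cm a e) || !(cm b e) || !(br d e) ||
      decide (d = e) || anyL (fun x => cm x a && cm x e && br b x && br x d) invs) invs) invs) invs)
      invs = true := by
  decide +kernel

theorem s6_inv : ∀ p : S6, p * p = 1 → p = 1 ∨ ∃ g : S6, g * p * g⁻¹ = swap 4 5 ∨ g * p * g⁻¹ = n6 ∨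
    g * p * g⁻¹ = t6 := by decide +kernel

theorem s6_facts : ∀ p : S6, (p * swap 0 1 = swap 0 1 * p → p * swap 4 5 = swap 4 5 * p →
      swap 1 2 * p * swap 1 2 = p * swap 1 2 * p → p * swap 3 4 * p = swap 3 4 * p * swap 3 4 →
      p = swap 2 3) ∧ (p * n6 = n6 * p → p ^ 4 = 1) ∧
    (p * swap 4 5 * p⁻¹ = swap 1 2 → p * swap 0 1 * p⁻¹ = swap 3 4 → p * p = 1 → p = t6) ∧
    (p * swap 4 5 = swap 4 5 * p → p ^ 12 = 1 ∧ (p = 1 ∨ p = swap 4 5 ∨ p ^ 4 ≠ 1 ∨
      ((p * y6 * p⁻¹ * y6⁻¹) ^ 3 = 1 ∧ p * y6 * p⁻¹ * y6⁻¹ ≠ 1) ∨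
      ∃ g : S6, g * p * g⁻¹ = n6 ∨ g * p * g⁻¹ = t6)) := by decide +kernel

theorem invs_sq : ∀ c ∈ invs, c * c = 1 := by decide +kernel

attribute [local irreducible] invs cmul cinv

theorem s6_std {a b d e : S6} (ha : a * a = 1) (hb : b * b = 1) (hd : d * d = 1) (he : e * e = 1)
    (a1 : a ≠ 1) (b1 : b ≠ 1) (d1 : d ≠ 1) (e1 : e ≠ 1) (hab : a ≠ b) (hde : d ≠ e)
    (h1 : a * b * a = b * a * b) (h2 : d * e * d = e * d * e) (h3 : a * d = d * a)
    (h4 : a * e = e * a) (h5 : b * d = d * b) (h6 : b * e = e * b) :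
    ∃ ψ : S6 →* S6, Function.Bijective ψ ∧ ψ (swap 0 1) = a ∧ ψ (swap 1 2) = b ∧
      ψ (swap 3 4) = d ∧ ψ (swap 4 5) = e := by
  have q : ∀ {x y : S6}, CP.of x = CP.of y ↔ x = y := CP.equiv.injective.eq_iff
  have hbr : ∀ {x y}, br (CP.of x) (CP.of y) = true ↔ x * y * x = y * x * y := by
    intro x y; simp only [br, decide_eq_true_eq, ← CP.of_mul, q]
  have hcm : ∀ {x y}, cm (CP.of x) (CP.of y) = true ↔ x * y = y * x := by
    intro x y; simp only [cm, decide_eq_true_eq, ← CP.of_mul, q]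
  have k1 := allL_iff.mp (allL_iff.mp conn_chk _ (mem_invs a ha a1)) _ (mem_invs b hb b1)
  simp only [hbr.mpr h1, q, hab, decide_false, Bool.not_true, Bool.false_or] at k1
  have k2 := allL_iff.mp k1 _ (mem_invs d hd d1)
  simp only [hcm.mpr h3, hcm.mpr h5, Bool.not_true, Bool.false_or] at k2
  have k3 := allL_iff.mp k2 _ (mem_invs e he e1)
  simp only [hbr.mpr h2, hcm.mpr h4, hcm.mpr h6, q, hde, decide_false, Bool.not_true,
    Bool.false_or] at k3
  obtain ⟨c, hc, hx⟩ := anyL_iff.mp k3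
  have hc2 := invs_sq c hc
  obtain ⟨c, rfl⟩ := CP.of_surjective c
  rw [← CP.of_mul, ← CP.of_one, q] at hc2
  simp only [Bool.and_eq_true, hbr, hcm] at hx
  have m3 : ∀ {x y : S6}, x * x = 1 → y * y = 1 → x * y * x = y * x * y → (x * y) ^ 3 = 1 :=
    fun {x y} hx hy e => by
      calc _ = x * y * x * (y * x * y) := by simp only [pow_three, mul_assoc]
        _ = x * (y * (x * x) * y) * x := by rw [← e]; group
        _ = 1 := by rw [hx, mul_one, hy, mul_one, hx]
  have m2 : ∀ {x y : S6}, x * x = 1 → y * y = 1 → x * y = y * x → (x * y) ^ 2 = 1 :=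
    fun hx hy e => by rw [Commute.mul_pow e, sq, sq, hx, hy, mul_one]
  obtain ⟨ψ, hψ⟩ := Pres.exists_hom_perm 5 ![a, b, c, d, e]
    (fun i => by fin_cases i <;> assumption)
    (fun i j => by
      fin_cases i <;> fin_cases j <;> simp
      exacts [m3 ha hb h1, m3 hb hc2 hx.1.2, m3 hc2 hd hx.2, m3 hd he h2])
    fun i j => by
      fin_cases i <;> fin_cases j <;> simp
      exacts [m2 ha hc2 hx.1.1.1.symm, m2 ha hd h3, m2 ha he h4, m2 hb hd h5, m2 hb he h6,
        m2 hc2 he hx.1.1.2]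
  refine ⟨ψ, Finite.injective_iff_bijective.mp ((MonoidHom.ker_eq_bot_iff ψ).mp ?_),
    hψ 0, hψ 1, hψ 3, hψ 4⟩
  by_contra hn
  have := Perm.alternatingGroup_le_of_normal (by simp) ((Subgroup.nontrivial_iff_ne_bot _).mpr hn)
    (show y6 ∈ _ from Perm.mem_alternatingGroup.mpr (by decide))
  rw [MonoidHom.mem_ker, y6, map_mul, show ψ (swap 0 1) = a from hψ 0,
    show ψ (swap 1 2) = b from hψ 1] at this
  exact hab (mul_left_cancel (ha.trans this.symm))

end Cfsg.Agent.P43
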