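import Cfsg.Agent.P43.He
import Cfsg.Agent.Amalg.SpBasic
import Cfsg.Agent.Spec.Sp4
import Cfsg.Agent.LinP.Lin

/-! The centraliser of a transvection in `PSp₄(3)`. -/

set_option autoImplicit false

namespace Cfsg.Agent.P43

open Subgroup Cfsg.Agent.Local Cfsg.Agent.Amalg Cfsg.Agent.Spec Matrix

variable {F : Type*} [Field F] (κ : ZMod 3 →+* F)

noncomputable section

theorem om_e0 (a b : F) : om (spe 0 : SpV 2 F) (a • spe 1 + b • spf 1) = 0 := by simp

def nH : He →* SpG 2 F := MonoidHom.mk'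
  (fun p => spE (spe 0) (κ p.u • spe 1 + κ p.v • spf 1) (κ p.c)) fun p q => by
    rw [spE_mul (om_e0 _ _) (om_e0 _ _)]
    congr 1
    · simp only [He.mul_def, map_add]; module
    · simp [He.mul_def]; ring

theorem nH_apply (p : He) : nH κ p = spE (spe 0) (κ p.u • spe 1 + κ p.v • spf 1) (κ p.c) := rfl

def lH : SL23 →* SpG 2 F := MonoidHom.mk'
  (fun A => ⟨spDiag ![1, A.1.map κ], spDiag_mem fun i => by
    fin_cases i
    · exact det_one
    · exact (κ.map_det A.1).symm.trans (by rw [A.2, map_one])⟩) fun A B => Subtype.ext (by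
    refine Eq.trans (congrArg spDiag ?_) (spDiag_mul _ _).symm
    funext i
    fin_cases i <;> simp [Matrix.map_mul])

theorem lH_smul (A : SL23) : lH κ A • (spe 0 : SpV 2 F) = spe 0 ∧
    lH κ A • (spf 0 : SpV 2 F) = spf 0 ∧
    lH κ A • (spe 1 : SpV 2 F) = κ (A 0 0) • spe 1 + κ (A 1 0) • spf 1 ∧
    lH κ A • (spf 1 : SpV 2 F) = κ (A 0 1) • spe 1 + κ (A 1 1) • spf 1 := by
  refine ⟨?_, ?_, ?_, ?_⟩ <;> funext i <;> rcases i with i | i <;> fin_cases i <;>
    simp [sp_smul_def, lH, spDiag, spe, spf]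

def ΦM : M648 →* SpG 2 F := SemidirectProduct.lift (nH κ) (lH κ) fun A => by
  ext1 p
  show nH κ (He.lin A p) = lH κ A * nH κ p * (lH κ A)⁻¹
  rw [nH_apply, nH_apply, spE_conj (om_e0 _ _), (lH_smul κ A).1, smul_add, sp_smul_smul,
    sp_smul_smul, (lH_smul κ A).2.2.1, (lH_smul κ A).2.2.2]
  congr 1
  simp only [He.lin, map_add, map_mul]
  module

theorem ΦM_apply (m : M648) : ΦM κ m = nH κ m.left * lH κ m.right := rfl

theorem ΦM_e0 (m : M648) : ΦM κ m • (spe 0 : SpV 2 F) = spe 0 := by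
  rw [ΦM_apply, mul_smul, (lH_smul κ _).1, nH_apply, spE_smul_self (om_e0 _ _)]

theorem ΦM_inj : Function.Injective (ΦM κ) := by
  rw [injective_iff_map_eq_one]
  rintro ⟨p, A⟩ h
  have h1 : ΦM κ ⟨p, A⟩ • (spf 0 : SpV 2 F) = spf 0 := by rw [h, one_smul]
  rw [ΦM_apply, mul_smul, (lH_smul κ _).2.1, nH_apply, spE_smul (om_e0 _ _)] at h1
  have a1 := congrFun h1 (.inl 0)
  have a2 := congrFun h1 (.inl 1)
  have a3 := congrFun h1 (.inr 1)
  simp at a1 a2 a3
  have hp : p = 1 := He.ext a2 a3 a1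
  rw [ΦM_apply, hp, map_one, one_mul] at h
  have b1 := (lH_smul κ A).2.2.1
  have b2 := (lH_smul κ A).2.2.2
  rw [h, one_smul] at b1 b2
  have c1 := congrFun b1 (.inl 1)
  have c2 := congrFun b1 (.inr 1)
  have c3 := congrFun b2 (.inl 1)
  have c4 := congrFun b2 (.inr 1)
  simp at c1 c2 c3 c4
  have hA : A = 1 := by
    ext i j
    apply κ.injective
    fin_cases i <;> fin_cases j <;> simp [← c1, ← c4, ← c2, ← c3]
  rw [hp, hA]
  rfl

theorem ΦM_surj (hκ : Function.Surjective κ) {g : SpG 2 F} (hg : g • (spe 0 : SpV 2 F) = spe 0) :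
    ∃ m, ΦM κ m = g := by
  obtain ⟨u, hu⟩ := hκ (-(g • (spf 0 : SpV 2 F)) (.inl 1))
  obtain ⟨v, hv⟩ := hκ (-(g • (spf 0 : SpV 2 F)) (.inr 1))
  obtain ⟨c, hc⟩ := hκ (-(g • (spf 0 : SpV 2 F)) (.inl 0))
  have h0 := smul_inr_of_fix hg (spf 0)
  have e0 : ((nH κ ⟨u, v, c⟩)⁻¹ * g) • (spe 0 : SpV 2 F) = spe 0 := by
    rw [mul_smul, hg, inv_smul_eq_iff, nH_apply, spE_smul_self (om_e0 _ _)]
  have f0 : ((nH κ ⟨u, v, c⟩)⁻¹ * g) • (spf 0 : SpV 2 F) = spf 0 := by
    rw [mul_smul, inv_smul_eq_iff, nH_apply, spE_smul (om_e0 _ _)]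
    funext i
    rcases i with i | i <;> fin_cases i <;> simp [hu, hv, hc, h0]
  generalize hh : (nH κ ⟨u, v, c⟩)⁻¹ * g = h at e0 f0
  have hfix : h ∈ spFix F {1} := fun l hl => by
    obtain rfl : l = 0 := by fin_cases l <;> simp at hl ⊢
    exact ⟨e0, f0⟩
  obtain ⟨a, ha⟩ := hκ ((h • (spe 1 : SpV 2 F)) (.inl 1))
  obtain ⟨b, hb⟩ := hκ ((h • (spf 1 : SpV 2 F)) (.inl 1))
  obtain ⟨a', ha'⟩ := hκ ((h • (spe 1 : SpV 2 F)) (.inr 1))
  obtain ⟨b', hb'⟩ := hκ ((h • (spf 1 : SpV 2 F)) (.inr 1))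
  have i1 := spFix_inl hfix (l := 0) (by simp)
  have i2 := smul_inr_of_fix e0
  have e1 : h • (spe 1 : SpV 2 F) = κ a • spe 1 + κ a' • spf 1 := by
    funext i
    rcases i with i | i <;> fin_cases i <;> simp [ha, ha', i1, i2]
  have f1 : h • (spf 1 : SpV 2 F) = κ b • spe 1 + κ b' • spf 1 := by
    funext i
    rcases i with i | i <;> fin_cases i <;> simp [hb, hb', i1, i2]
  have hd : (!![a, b; a', b'] : Matrix (Fin 2) (Fin 2) (ZMod 3)).det = 1 := by
    have := om_smul_smul h (spe 1) (spf 1)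
    rw [e1, f1] at this
    apply κ.injective
    rw [det_fin_two_of]
    simp at this ⊢
    linear_combination this
  refine ⟨⟨⟨u, v, c⟩, ⟨_, hd⟩⟩, ?_⟩
  rw [ΦM_apply, ← eq_inv_mul_iff_mul_eq, hh]
  have := lH_smul κ ⟨_, hd⟩
  refine sp_ext_basis (fun k => ?_) fun k => ?_ <;> fin_cases k
  · exact this.1.trans e0.symm
  · exact this.2.2.1.trans e1.symm
  · exact this.2.1.trans f0.symm
  · exact this.2.2.2.trans f1.symm

theorem smul_of_center {g : SpG 2 F} (hg : g ∈ center (SpG 2 F)) :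
    ∃ c : F, ∀ v : SpV 2 F, g • v = c • v := by
  obtain ⟨c, hc⟩ := (sp_center g).1 hg
  refine ⟨c, fun v => ?_⟩
  rw [sp_smul_def, ← spMat_apply, hc, Algebra.algebraMap_eq_smul_one, smul_mulVec, one_mulVec]

/-- the class of the standard transvection -/
def c0 : PSp 2 F := QuotientGroup.mk (nH κ He.z)

theorem comm_of_fix {g : SpG 2 F} (hg : g • (spe 0 : SpV 2 F) = spe 0) :
    g * nH κ He.z = nH κ He.z * g := by
  rw [← mul_inv_eq_iff_eq_mul, nH_apply, spE_conj (om_e0 _ _), hg]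
  simp [He.z]

theorem exists_fix (hκ : Function.Surjective κ) {g : SpG 2 F}
    (hg : (QuotientGroup.mk g : PSp 2 F) ∈ centralizer {c0 κ}) :
    ∃ g' : SpG 2 F, g' • (spe 0 : SpV 2 F) = spe 0 ∧ (QuotientGroup.mk g' : PSp 2 F) = g := by
  rw [mem_centralizer_singleton_iff, c0, ← QuotientGroup.mk_mul, ← QuotientGroup.mk_mul,
    QuotientGroup.eq] at hg
  obtain ⟨c, hc⟩ := smul_of_center hg
  have e : ∀ v : SpV 2 F, (g * nH κ He.z * g⁻¹) • (c • v) = nH κ He.z • v := fun v => by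
    have := hc (g⁻¹ • v)
    rw [mul_smul, inv_smul_eq_iff, mul_smul, smul_inv_smul] at this
    rw [this, mul_smul _ g⁻¹, sp_smul_smul]
  rw [nH_apply, spE_conj (om_e0 _ _)] at e
  simp only [He.z, map_zero, zero_smul, add_zero, smul_zero, map_one] at e
  simp only [spE_smul (om_zero_right _), om_zero_right, smul_zero, add_zero, zero_add, one_mul] at e
  generalize hw : g • (spe 0 : SpV 2 F) = w at e
  have e1 := congrFun (e (spe 0))
  have e2 := congrFun (e (spf 0))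
  have e3 := congrFun (e (spe 1))
  have k : ∀ x : F, x = 0 ∨ x = 1 ∨ x = -1 := fun x => by
    obtain ⟨y, rfl⟩ := hκ x
    have : ∀ y : ZMod 3, y = 0 ∨ y = 1 ∨ y = -1 := by decide
    rcases this y with rfl | rfl | rfl <;> simp
  have h3 : (1 : F) + 1 + 1 = 0 := by
    have := congrArg κ (show (1 : ZMod 3) + 1 + 1 = 0 from rfl)
    simpa using this
  have n1 : (1 : F) ≠ -1 := fun h => one_ne_zero (α := F) (by linear_combination h3 - h)
  have a1 := e1 (.inr 0)
  have a2 := e1 (.inl 0)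
  have a3 := e2 (.inl 0)
  have a4 := e2 (.inl 1)
  have a5 := e2 (.inr 1)
  simp at a1 a2 a3 a4 a5
  have hc0 : c ≠ 0 := by rintro rfl; simp at a2
  have w0 : w (.inr 0) = 0 := by simpa [hc0] using a1
  have hc1 : c = 1 := by simpa [w0] using a2
  have w1 : w (.inl 0) ≠ 0 := by intro h; simp [h] at a3
  have w2 : w (.inl 1) = 0 := by simpa [hc0, w1] using a4
  have w3 : w (.inr 1) = 0 := by simpa [hc0, w1] using a5
  rcases k (w (.inl 0)) with h | h | h
  · exact absurd h w1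
  · refine ⟨g, hw.trans ?_, rfl⟩
    funext i
    rcases i with i | i <;> fin_cases i <;> simp [w0, w2, w3, h]
  · let m : SpG 2 F := ⟨-1, SymplecticGroup.neg_mem (one_mem _)⟩
    refine ⟨g * m, ?_, ?_⟩
    · rw [mul_smul, show m • (spe 0 : SpV 2 F) = (-1 : F) • spe 0 by
        rw [sp_smul_def]; simp [m, neg_mulVec], sp_smul_smul, hw]
      funext i
      rcases i with i | i <;> fin_cases i <;> simp [w0, w2, w3, h]
    · rw [QuotientGroup.mk_mul_of_mem]
      exact mem_center_iff.2 fun x => Subtype.ext (by simp [m])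

def ΨM : M648 →* PSp 2 F := (QuotientGroup.mk' _).comp (ΦM κ)

theorem ΨM_inj : Function.Injective (ΨM κ) := by
  rw [injective_iff_map_eq_one]
  intro m hm
  obtain ⟨c, hc⟩ := smul_of_center ((QuotientGroup.eq_one_iff _).1 hm)
  have h1 := congrFun ((hc _).symm.trans (ΦM_e0 κ m)) (.inl 0)
  simp at h1
  exact ΦM_inj κ ((sp_ext fun v => by rw [hc, h1, one_smul, one_smul]).trans (map_one _).symm)

theorem ΨM_range (hκ : Function.Surjective κ) : (ΨM κ).range = centralizer {c0 κ} := by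
  apply le_antisymm
  · rintro _ ⟨m, rfl⟩
    exact mem_centralizer_singleton_iff.2 (congrArg QuotientGroup.mk (comm_of_fix κ (ΦM_e0 κ m)))
  · intro g hg
    obtain ⟨g, rfl⟩ := QuotientGroup.mk_surjective g
    obtain ⟨g', h1, h2⟩ := exists_fix κ hκ hg
    obtain ⟨m, rfl⟩ := ΦM_surj κ hκ h1
    exact ⟨m, h2⟩

theorem orderOf_c0 : orderOf (c0 κ) = 3 := by
  have : c0 κ = ΨM κ (SemidirectProduct.inl He.z) := by
    show _ = QuotientGroup.mk (SemidirectProduct.lift _ _ _ _)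
    rw [SemidirectProduct.lift_inl]; rfl
  rw [this, orderOf_injective _ (ΨM_inj κ), orderOf_injective _ SemidirectProduct.inl_injective]
  exact orderOf_eq_prime (hp := ⟨Nat.prime_three⟩) (by decide) (by decide)

theorem exists_sylow [Finite F] : ∃ S : Sylow 3 (PSp 2 F), c0 κ ∈ (S : Subgroup (PSp 2 F)) ∧
    c0 κ ∈ centralizer ((S : Subgroup (PSp 2 F)) : Set (PSp 2 F)) := by
  have : Fact (Nat.Prime 3) := ⟨Nat.prime_three⟩
  obtain ⟨P⟩ : Nonempty (Sylow 3 (SpG 2 F)) := inferInstance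
  have h3 : ((3 : ℕ) : F) = 0 := by
    rw [← map_natCast κ, ← map_zero κ]; rfl
  obtain ⟨v, hv, hfix⟩ := LinP.exists_fixed_vector (F := F) (V := SpV 2 F)
    ((DistribMulAction.toModuleAut F (SpV 2 F)).comp (P : Subgroup (SpG 2 F)).subtype) P.2 h3
  obtain ⟨g, -, hg⟩ := spFix_trans (s := Set.univ) (fun l hl => absurd trivial hl) hv
    (supp_spe (k := 0) trivial) (spe_ne_zero 0)
  let S := (g • P).mapSurjective (QuotientGroup.mk'_surjective (center (SpG 2 F)))
  have hc : c0 κ ∈ centralizer ((S : Subgroup (PSp 2 F)) : Set (PSp 2 F)) := by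
    rintro _ ⟨_, ⟨x, hx, rfl⟩, rfl⟩
    refine congrArg QuotientGroup.mk (comm_of_fix κ ?_)
    show (g * x * g⁻¹) • _ = _
    rw [← hg, mul_smul, inv_smul_smul, mul_smul]
    exact congrArg _ (hfix ⟨x, hx⟩)
  refine ⟨S, ?_, hc⟩
  have hz : IsPGroup 3 (zpowers (c0 κ)) := IsPGroup.of_card (n := 1) (by
    rw [Nat.card_zpowers, orderOf_c0, pow_one])
  have := S.3 (S.2.to_sup_of_normal_right' hz ?_) le_sup_left
  · rw [← this]; exact mem_sup_right (mem_zpowers _)
  · intro x hx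
    refine centralizer_le_normalizer _ (mem_centralizer_iff.2 ?_)
    rintro _ ⟨k, rfl⟩
    exact ((show Commute x (c0 κ) from hc x hx).zpow_right k).symm.eq

end

end Cfsg.Agent.P43
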